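import Cfsg.Agent.H407.IF.Cls
import Cfsg.Agent.H74.SpC

/-!
# S5719, symplectic groups in characteristic 2: involutions of rank two (helper333)

`false_of_E` : if `X` (with the inequalities `Hyp X`) contains some `E w u c ≠ 1`, then
`X` contains a transvection (`|V| = q ^ (2 m)`, `m ≥ 3`, `q` even).

Proof. Let `X` have no transvection, `s = E w u c₀ ∈ X` of rank two. `|s^G| q² < |V|²`, hence the fixity of `s` is
less than `q ^ (m - 1)`. So the subgroups `R_w`, `R_u` of `U^⊥` of the `y` with `E w y c ∈ X`, `E u y c ∈ X` have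
more than `q ^ m` elements, and `[E w y c, E u y' c'] = E u (B y' y w) 0`. By duality over `F_2` all
`E w (l u) 0 ∈ X`, so `c₀ = 0`. This holds for all elements of rank two in `X`; `E w y 0 * E w y' 0 = E w (y + y') (B y' y)`
shows that `R_w` is totally isotropic: contradiction.
-/

set_option autoImplicit false
set_option linter.unusedSectionVars false

namespace Cfsg.Agent.H333.IF

open Module Subgroup Cfsg.Agent.H74.Psp Cfsg.Agent.H407.IF

variable {F V : Type*} [Field F] [AddCommGroup V] [Module F V] {B : V →ₗ[F] V →ₗ[F] F}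

/-! ### the class of an element of rank two -/

section Class

variable [Finite F] [Finite V]

theorem card_pairs (hB : Symp B) :
    Nat.card {p : V × V // p.1 ≠ 0 ∧ B p.1 p.2 = 0} * Nat.card F < Nat.card V * Nat.card V := by
  classical
  have : Fintype {x : V // x ≠ 0} := Fintype.ofFinite _
  let e : {p : V × V // p.1 ≠ 0 ∧ B p.1 p.2 = 0} ≃ Σ x : {x : V // x ≠ 0}, {y : V // B x.1 y = 0} :=
    { toFun := fun p => ⟨⟨p.1.1, p.2.1⟩, ⟨p.1.2, p.2.2⟩⟩
      invFun := fun s => ⟨(s.1.1, s.2.1), s.1.2, s.2.2⟩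
      left_inv := fun _ => rfl
      right_inv := fun _ => rfl }
  rw [Nat.card_congr e, Nat.card_sigma, Finset.sum_mul, Finset.sum_congr rfl fun x _ => card_perp hB x.2,
    Finset.sum_const, Finset.card_univ, ← Nat.card_eq_fintype_card, smul_eq_mul]
  refine Nat.mul_lt_mul_of_pos_right ?_ Nat.card_pos
  exact Finite.card_subtype_lt (x := (0 : V)) (by simp)

theorem index_lt (hB : Symp B) (h2 : (2 : F) = 0) {w u : V} (hw : w ≠ 0) (hwu : B w u = 0) (c : F) :
    (centralizer ({E B w u c} : Set (Sp B))).index * Nat.card F ^ 2 < Nat.card V * Nat.card V := by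
  refine lt_of_le_of_lt ?_ (card_pairs hB)
  rw [pow_two, ← mul_assoc]
  refine Nat.mul_le_mul_right _ ?_
  rw [Subgroup.index, ← Nat.card_prod]
  have hx : ∀ (g : Sp B) (a : F), E B (g • w) (g • u + a • g • w) c = g * E B w u c * g⁻¹ := by
    intro g a
    rw [conj_E hB g hwu, E_add_v hB (by rw [B_smul_smul, hwu]), h2, zero_mul, add_zero]
  let f : (Sp B ⧸ centralizer ({E B w u c} : Set (Sp B))) × F → {p : V × V // p.1 ≠ 0 ∧ B p.1 p.2 = 0} := fun k =>
    ⟨(k.1.out • w, k.1.out • u + k.2 • k.1.out • w), by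
      refine ⟨?_, ?_⟩
      · show k.1.out • w ≠ 0
        intro h
        apply hw
        rw [← inv_smul_smul k.1.out w, h, smul_zero]
      · show B (k.1.out • w) (k.1.out • u + k.2 • k.1.out • w) = 0
        rw [map_add, LinearMap.map_smul, hB.alt, smul_zero, add_zero, B_smul_smul, hwu]⟩
  refine Nat.card_le_card_of_injective f ?_
  rintro ⟨k, a⟩ ⟨k', a'⟩ h
  have h1 : k.out • w = k'.out • w := congrArg (fun p : {p : V × V // p.1 ≠ 0 ∧ B p.1 p.2 = 0} => p.1.1) h
  have h3 : k.out • u + a • k.out • w = k'.out • u + a' • k'.out • w :=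
    congrArg (fun p : {p : V × V // p.1 ≠ 0 ∧ B p.1 p.2 = 0} => p.1.2) h
  have h4 : k.out * E B w u c * (k.out)⁻¹ = k'.out * E B w u c * (k'.out)⁻¹ := by
    rw [← hx k.out a, ← hx k'.out a', h3, h1]
  have h5 : k = k' := by
    rw [← k.out_eq, ← k'.out_eq]
    change (QuotientGroup.mk k.out : Sp B ⧸ centralizer ({E B w u c} : Set (Sp B))) = QuotientGroup.mk k'.out
    rw [QuotientGroup.eq, mem_centralizer_iff]
    intro s hs
    rw [Set.mem_singleton_iff.1 hs]
    calc E B w u c * ((k.out)⁻¹ * k'.out) = (k.out)⁻¹ * (k.out * E B w u c * (k.out)⁻¹) * k'.out := by group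
      _ = (k.out)⁻¹ * (k'.out * E B w u c * (k'.out)⁻¹) * k'.out := by rw [h4]
      _ = (k.out)⁻¹ * k'.out * E B w u c := by group
  subst h5
  have h6 : (a - a') • k.out • w = 0 := by
    rw [sub_smul, sub_eq_zero]
    exact add_left_cancel h3
  rcases smul_eq_zero.1 h6 with h7 | h7
  · rw [sub_eq_zero.1 h7]
  · exfalso
    apply hw
    rw [← inv_smul_smul k.out w, h7, smul_zero]

end Class

/-! ### the fixity inequality for homomorphisms -/

theorem hom_bound {X : Subgroup (Sp B)} (hX : Hyp X) {s : Sp B} (hs : s ∈ X) (hs1 : s ≠ 1) (hss : s * s = 1)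
    {M : Type*} [Group M] (φ : M →* Sp B) (hφ : ∀ m, φ m * s = s * φ m) :
    ∃ r : ℕ, Nat.card M = Nat.card (X.comap φ) * r ∧ r ^ 5 < (centralizer ({s} : Set (Sp B))).index := by
  refine ⟨(X.comap φ).index, (Subgroup.card_mul_index _).symm, ?_⟩
  rw [Subgroup.index_comap]
  refine hX.e2 s hs hs1 hss φ.range ?_
  rintro _ ⟨m, rfl⟩
  exact hφ m

/-- `{(y, c) : B w y = 0, B u y = 0}`, a subgroup of the Heisenberg group -/
theorem bound_aux (hB : Symp B) {X : Subgroup (Sp B)} (hX : Hyp X) {s : Sp B} (hs : s ∈ X) (hs1 : s ≠ 1)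
    (hss : s * s = 1) (w u : V) (hc : ∀ y c, B w y = 0 → B u y = 0 → E B w y c * s = s * E B w y c) :
    ∃ r : ℕ, Nat.card {a : Heis B w // B u a.w = 0} =
      Nat.card {a : Heis B w // B u a.w = 0 ∧ E B w a.w a.c ∈ X} * r ∧
      r ^ 5 < (centralizer ({s} : Set (Sp B))).index := by
  let _ := heisGroup hB w
  let M : Subgroup (Heis B w) :=
    { carrier := {a | B u a.w = 0}
      mul_mem' := by
        intro a b ha hb
        change B u (a.w + b.w) = 0
        rw [map_add, ha, hb, add_zero]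
      one_mem' := map_zero _
      inv_mem' := by
        intro a ha
        change B u (-a.w) = 0
        rw [map_neg, ha, neg_zero] }
  let φ : M →* Sp B := (heisHom hB w).comp M.subtype
  obtain ⟨r, h1, h3⟩ := hom_bound hX hs hs1 hss φ (fun m => hc m.1.w m.1.c m.1.h m.2)
  refine ⟨r, ?_, h3⟩
  have h4 : Nat.card M = Nat.card {a : Heis B w // B u a.w = 0} := rfl
  have h5 : Nat.card (X.comap φ) = Nat.card {a : Heis B w // B u a.w = 0 ∧ E B w a.w a.c ∈ X} :=
    Nat.card_congr
      { toFun := fun m => ⟨m.1.1, m.1.2, m.2⟩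
        invFun := fun a => ⟨⟨a.1, a.2.1⟩, a.2.2⟩
        left_inv := fun _ => rfl
        right_inv := fun _ => rfl }
  rw [← h4, h1, h5]

/-! ### duality over the prime field -/

section Dual

variable [Finite F] [Finite V]

theorem pair_le (hB : Symp B) (h2 : (2 : F) = 0) {ψ : F →+ ZMod 2} (hψ : ∀ c : F, (∀ x, ψ (c * x) = 0) → c = 0)
    (R S : AddSubgroup V) (h : ∀ x ∈ R, ∀ y ∈ S, ψ (B x y) = 0) : Nat.card R * Nat.card S ≤ Nat.card V := by
  have : Fact (Nat.Prime 2) := ⟨Nat.prime_two⟩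
  have hV : ∀ x : V, 2 • x = 0 := by
    intro x
    rw [two_nsmul]
    exact addself h2 x
  let β : V →+ V →+ ZMod 2 :=
    AddMonoidHom.mk' (fun w => ψ.comp (B.flip w).toAddMonoidHom) (by
      intro a b
      ext x
      simp)
  have hβ : ∀ w x, β w x = ψ (B x w) := fun _ _ => rfl
  have hnd : ∀ w, (∀ x, β w x = 0) → w = 0 := by
    intro w hw
    refine hB.nd w fun y => ?_
    rw [skew hB, neg_eq_zero]
    apply hψ
    intro a
    have := hw (a • y)
    rwa [hβ, LinearMap.map_smul, LinearMap.smul_apply, smul_eq_mul, mul_comm] at this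
  have h1 := (H74.dual_card hV hV β hnd S).1
  rw [← h1]
  refine Nat.mul_le_mul_right _ ?_
  have h3 : (R : Set V) ⊆ {x : V | ∀ s ∈ S, β s x = 0} := fun x hx s hs => h x hx s hs
  exact Set.ncard_le_ncard h3 (Set.toFinite _)

theorem exists_psi (h2 : (2 : F) = 0) (L : AddSubgroup F) (hL : L ≠ ⊤) :
    ∃ ψ : F →+ ZMod 2, (∀ l ∈ L, ψ l = 0) ∧ ∀ c : F, (∀ x, ψ (c * x) = 0) → c = 0 := by
  have : Fact (Nat.Prime 2) := ⟨Nat.prime_two⟩
  have hF : ∀ x : F, 2 • x = 0 := by
    intro x
    rw [two_nsmul]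
    exact addself h2 x
  let _ : Module (ZMod 2) F := AddCommGroup.zmodModule hF
  have h1 : AddSubgroup.toZModSubmodule 2 L < ⊤ := by
    rw [lt_top_iff_ne_top]
    intro h
    apply hL
    rw [AddSubgroup.eq_top_iff']
    intro x
    have : x ∈ AddSubgroup.toZModSubmodule 2 L := by rw [h]; trivial
    exact this
  obtain ⟨f, hf, hker⟩ := Submodule.exists_le_ker_of_lt_top _ h1
  refine ⟨f.toAddMonoidHom, fun l hl => hker hl, fun c hc => ?_⟩
  by_contra hc0
  apply hf
  ext x
  have h3 := hc (c⁻¹ * x)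
  rw [mul_inv_cancel_left₀ hc0] at h3
  exact h3

end Dual

/-! ### the main argument -/

section Main

variable [Finite F] [Finite V]

/-- `{y ∈ ⟨w, u⟩^⊥ : E w y c ∈ X for some c}` -/
def RW (hB : Symp B) (X : Subgroup (Sp B)) (w u : V) : AddSubgroup V :=
  Rs hB X w ⊓ (LinearMap.ker (B u)).toAddSubgroup

theorem mem_RW {hB : Symp B} {X : Subgroup (Sp B)} {w u y : V} :
    y ∈ RW hB X w u ↔ (B w y = 0 ∧ ∃ c, E B w y c ∈ X) ∧ B u y = 0 := Iff.rfl

theorem E_sq (hB : Symp B) (h2 : (2 : F) = 0) {w u : V} (hwu : B w u = 0) (c : F) :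
    E B w u c * E B w u c = 1 := by
  rw [E_mul hB hwu hwu, addself h2, hB.alt, add_zero, ← two_mul, h2, zero_mul, E_one hB]

/-- without transvections, `|⟨w,u⟩^⊥| q` is at most `|R| r` -/
theorem card_le (hB : Symp B) (h2 : (2 : F) = 0) {m : ℕ} (hV : Nat.card V = Nat.card F ^ (2 * m)) (hm : 3 ≤ m)
    {X : Subgroup (Sp B)} (hX : Hyp X) (no_tv : ∀ v c, t B v c ∈ X → v = 0 ∨ c = 0) {w₁ u₁ : V} {c₁ : F}
    (hw₁ : w₁ ≠ 0) (hwu₁ : B w₁ u₁ = 0) (hs1 : E B w₁ u₁ c₁ ≠ 1) (hs : E B w₁ u₁ c₁ ∈ X) {w u : V}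
    (hi : LinearIndependent F ![w, u])
    (hc : ∀ y c, B w y = 0 → B u y = 0 → E B w y c * E B w₁ u₁ c₁ = E B w₁ u₁ c₁ * E B w y c) :
    Nat.card F ^ m < Nat.card (RW hB X w u) := by
  have hw : w ≠ 0 := hi.ne_zero 0
  obtain ⟨r, h1, h3⟩ := bound_aux hB hX hs hs1 (E_sq hB h2 hwu₁ c₁) w u hc
  have h4 := index_lt hB h2 hw₁ hwu₁ c₁
  set q := Nat.card F with hq
  have hq2 : 2 ≤ q := Finite.one_lt_card
  -- the fixity
  have hr : r < q ^ (m - 1) := by
    by_contra hcon
    push Not at hcon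
    have h5 : q ^ (5 * (m - 1)) ≤ r ^ 5 := by
      rw [mul_comm, pow_mul]
      exact Nat.pow_le_pow_left hcon 5
    have h6 : q ^ (5 * (m - 1)) * q ^ 2 < q ^ (4 * m) := by
      calc q ^ (5 * (m - 1)) * q ^ 2 ≤ r ^ 5 * q ^ 2 := Nat.mul_le_mul_right _ h5
        _ ≤ (centralizer ({E B w₁ u₁ c₁} : Set (Sp B))).index * q ^ 2 := Nat.mul_le_mul_right _ h3.le
        _ < Nat.card V * Nat.card V := h4
        _ = q ^ (4 * m) := by rw [hV, ← pow_add]; congr 1; ring
    rw [← pow_add] at h6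
    have h7 := (Nat.pow_lt_pow_iff_right (by omega : 1 < q)).1 h6
    omega
  -- the number of pairs
  have h5 : Nat.card {a : Heis B w // B u a.w = 0} * q = Nat.card V := by
    have h6 := card_orth hB hi
    have e : {a : Heis B w // B u a.w = 0} ≃ {x : V // ∀ i, B ((![w, u] : Fin 2 → V) i) x = 0} × F :=
      { toFun := fun a => (⟨a.1.w, by
          intro i
          fin_cases i
          · exact a.1.h
          · exact a.2⟩, a.1.c)
        invFun := fun p => ⟨⟨p.1.1, p.2, p.1.2 0⟩, p.1.2 1⟩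
        left_inv := fun _ => rfl
        right_inv := fun _ => rfl }
    rw [Nat.card_congr e, Nat.card_prod, ← hq, mul_assoc, ← pow_two]
    exact h6
  -- the elements in `X`
  have h6 : Nat.card {a : Heis B w // B u a.w = 0 ∧ E B w a.w a.c ∈ X} ≤ Nat.card (RW hB X w u) := by
    refine Nat.card_le_card_of_injective (fun a => (⟨a.1.w, mem_RW.2 ⟨⟨a.1.h, a.1.c, a.2.2⟩, a.2.1⟩⟩ : RW hB X w u)) ?_
    intro a b hab
    have h7 : a.1.w = b.1.w := congrArg Subtype.val hab
    apply Subtype.ext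
    refine Heis.ext h7 ?_
    have h8 := (E_diff hB (K := X) b.1.h (c' := a.1.c) b.2.2).1 (by rw [← h7]; exact a.2.2)
    rcases no_tv w _ h8 with h9 | h9
    · exact absurd h9 hw
    · exact sub_eq_zero.1 h9
  by_contra hcon
  push Not at hcon
  have h7 : Nat.card V < q ^ (2 * m) := by
    have hRpos : 0 < Nat.card (RW hB X w u) := Nat.card_pos
    calc Nat.card V = Nat.card {a : Heis B w // B u a.w = 0 ∧ E B w a.w a.c ∈ X} * r * q := by rw [← h5, h1]
      _ ≤ Nat.card (RW hB X w u) * r * q := Nat.mul_le_mul_right _ (Nat.mul_le_mul_right _ h6)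
      _ < Nat.card (RW hB X w u) * q ^ (m - 1) * q :=
        Nat.mul_lt_mul_of_pos_right (Nat.mul_lt_mul_of_pos_left hr hRpos) (by omega)
      _ ≤ q ^ m * q ^ (m - 1) * q := Nat.mul_le_mul_right _ (Nat.mul_le_mul_right _ hcon)
      _ = q ^ (2 * m) := by
        rw [← pow_add, ← pow_succ]
        congr 1
        omega
  rw [hV] at h7
  exact lt_irrefl _ h7

theorem E_ne_one (hB : Symp B) {w u : V} (hw : w ≠ 0) (hwu : B w u = 0) (hu : ∀ a : F, u ≠ a • w) (c : F) :
    E B w u c ≠ 1 := by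
  intro h
  obtain ⟨y, hy⟩ := sep0 hB hw
  have h1 := congrArg (fun g : Sp B => g • y) h
  simp only [one_smul] at h1
  rw [E_smul hB hwu] at h1
  have h3 : B y w = -1 := by rw [skew hB, hy]
  rw [h3] at h1
  apply hu (B y u - c)
  have h4 : (-1 : F) • u + B y u • w + (c * -1) • w = 0 := by
    have h5 : y + ((-1 : F) • u + B y u • w + (c * -1) • w) = y + 0 := by
      rw [add_zero]
      calc y + ((-1 : F) • u + B y u • w + (c * -1) • w) = y + (-1 : F) • u + B y u • w + (c * -1) • w := by abel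
        _ = y := h1
    exact add_left_cancel h5
  rw [neg_smul, one_smul, mul_neg, mul_one, neg_smul] at h4
  rw [sub_smul]
  have h6 : u = B y u • w - c • w - (-u + B y u • w + -(c • w)) := by abel
  rw [h4, sub_zero] at h6
  exact h6

theorem indep {w u : V} (hw : w ≠ 0) (hu : ∀ a : F, u ≠ a • w) : LinearIndependent F ![w, u] := by
  rw [LinearIndependent.pair_iff' hw]
  intro a ha
  exact hu a ha.symm

theorem indep' {w u : V} (hw : w ≠ 0) (hu : ∀ a : F, u ≠ a • w) : LinearIndependent F ![u, w] :=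
  LinearIndependent.pair_symm_iff.1 (indep hw hu)

/-- **Step B.** Elements of rank two in `X` have `c = 0`. -/
theorem c_zero (hB : Symp B) (h2 : (2 : F) = 0) {m : ℕ} (hV : Nat.card V = Nat.card F ^ (2 * m)) (hm : 3 ≤ m)
    {X : Subgroup (Sp B)} (hX : Hyp X) (no_tv : ∀ v c, t B v c ∈ X → v = 0 ∨ c = 0) {w u : V} {c : F}
    (hw : w ≠ 0) (hwu : B w u = 0) (hu : ∀ a : F, u ≠ a • w) (hs : E B w u c ∈ X) : c = 0 := by
  have huw : B u w = 0 := orth_symm hB hwu
  have hs1 := E_ne_one hB hw hwu hu c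
  have hR1 : Nat.card F ^ m < Nat.card (RW hB X w u) := by
    refine card_le hB h2 hV hm hX no_tv hw hwu hs1 hs (indep hw hu) ?_
    intro y d hy hy'
    rw [E_mul hB hy hwu, E_mul hB hwu hy, hy', orth_symm hB hy', add_comm y u, add_comm d c]
  have hR2 : Nat.card F ^ m < Nat.card (RW hB X u w) := by
    refine card_le hB h2 hV hm hX no_tv hw hwu hs1 hs (indep' hw hu) ?_
    intro y d hy hy'
    have h3 : E B u y d • w = w := by
      rw [E_smul hB hy, hwu, hy', zero_smul, zero_smul, mul_zero, zero_smul, add_zero, add_zero, add_zero]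
    rw [← mul_inv_eq_iff_eq_mul, conj_E hB _ hwu, E_smul_v hB hy, h3]
  -- the scalars
  let L : AddSubgroup F :=
    { carrier := {l | E B u (l • w) 0 ∈ X}
      add_mem' := by
        intro a b ha hb
        change E B u ((a + b) • w) 0 ∈ X
        have h3 := X.mul_mem ha hb
        rw [E_mul hB (by rw [LinearMap.map_smul, huw, smul_zero]) (by rw [LinearMap.map_smul, huw, smul_zero]),
          LinearMap.map_smul, LinearMap.map_smul, LinearMap.smul_apply, hB.alt, smul_zero, smul_zero, add_zero,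
          add_zero, ← add_smul] at h3
        exact h3
      zero_mem' := by
        change E B u ((0 : F) • w) 0 ∈ X
        rw [zero_smul, E_one hB]
        exact X.one_mem
      neg_mem' := by
        intro a ha
        change E B u ((-a) • w) 0 ∈ X
        have h3 := X.inv_mem ha
        rw [E_inv hB (by rw [LinearMap.map_smul, huw, smul_zero]), neg_zero, ← neg_smul] at h3
        exact h3 }
  have hL : L = ⊤ := by
    by_contra hcon
    obtain ⟨ψ, hψL, hψ⟩ := exists_psi h2 L hcon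
    have h3 := pair_le hB h2 hψ (RW hB X u w) (RW hB X w u) (by
      rintro x ⟨⟨hux, d, hd⟩, hwx⟩ y ⟨⟨hwy, e, he⟩, huy⟩
      apply hψL
      change E B u (B x y • w) 0 ∈ X
      have hwx' : B w x = 0 := hwx
      have huy' : B u y = 0 := huy
      have hxw : B x w = 0 := orth_symm hB hwx'
      have h4 : E B w y e * E B u x d * (E B w y e)⁻¹ = E B u (B x y • w) 0 * E B u x d := by
        rw [conj_E hB _ hux, E_smul hB hwy, E_smul hB hwy, huw, huy', hxw,
          E_mul hB (by rw [LinearMap.map_smul, huw, smul_zero]) hux, LinearMap.map_smul, hxw, smul_zero]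
        simp only [zero_smul, add_zero, mul_zero, zero_add]
        rw [add_comm x]
      have h5 : E B u (B x y • w) 0 = E B w y e * E B u x d * (E B w y e)⁻¹ * (E B u x d)⁻¹ := by
        rw [h4, mul_inv_cancel_right]
      rw [h5]
      exact X.mul_mem (X.mul_mem (X.mul_mem he hd) (X.inv_mem he)) (X.inv_mem hd))
    rw [hV] at h3
    have h4 : Nat.card F ^ m * Nat.card F ^ m < Nat.card (RW hB X u w) * Nat.card (RW hB X w u) :=
      Nat.mul_lt_mul'' hR2 hR1
    rw [← pow_add, ← two_mul] at h4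
    omega
  have h1 : (1 : F) ∈ L := by rw [hL]; trivial
  have h3 : E B u w 0 ∈ X := by
    have h4 : E B u ((1 : F) • w) 0 ∈ X := h1
    rwa [one_smul] at h4
  rw [E_comm0 hB huw] at h3
  have h4 : t B w c ∈ X := by
    have h5 := X.mul_mem hs h3
    rw [E_mul hB hwu hwu, addself h2, hB.alt, add_zero, add_zero] at h5
    exact h5
  rcases no_tv w c h4 with h5 | h5
  · exact absurd h5 hw
  · exact h5

/-- **An element `E w u c ≠ 1` of `X` gives a transvection in `X`.** -/
theorem false_of_E (hB : Symp B) (h2 : (2 : F) = 0) {m : ℕ} (hV : Nat.card V = Nat.card F ^ (2 * m)) (hm : 3 ≤ m)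
    {X : Subgroup (Sp B)} (hX : Hyp X) (no_tv' : ¬ ∃ v c, v ≠ 0 ∧ c ≠ 0 ∧ t B v c ∈ X) {w u : V} {c : F}
    (hwu : B w u = 0) (h1 : E B w u c ≠ 1) (hx : E B w u c ∈ X) : False := by
  have no_tv : ∀ v c, t B v c ∈ X → v = 0 ∨ c = 0 := by
    intro v c h
    by_contra hcon
    push Not at hcon
    exact no_tv' ⟨v, c, hcon.1, hcon.2, h⟩
  have ht0 : ∀ c : F, t B (0 : V) c = 1 := by
    intro c
    apply Sp.ext'
    intro x
    rw [t_smul hB, smul_zero, add_zero, one_smul]
  by_cases hw : w = 0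
  · subst hw
    apply h1
    apply Sp.ext'
    intro x
    rw [E_smul hB hwu]
    simp
  by_cases hu : ∀ a : F, u ≠ a • w
  · -- rank two
    have hR1 : Nat.card F ^ m < Nat.card (RW hB X w u) := by
      refine card_le hB h2 hV hm hX no_tv hw hwu h1 hx (indep hw hu) ?_
      intro y d hy hy'
      rw [E_mul hB hy hwu, E_mul hB hwu hy, hy', orth_symm hB hy', add_comm y u, add_comm d c]
    have hc0 : ∀ (y : V) (e : F), B w y = 0 → E B w y e ∈ X → e = 0 := by
      intro y e hy he
      by_cases hyw : ∀ a : F, y ≠ a • w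
      · exact c_zero hB h2 hV hm hX no_tv hw hy hyw he
      · push Not at hyw
        obtain ⟨a, rfl⟩ := hyw
        have h3 := E_add_v hB (map_zero (B w)) a e
        rw [zero_add, h2, zero_mul, add_zero] at h3
        rw [h3] at he
        rcases no_tv w e he with h4 | h4
        · exact absurd h4 hw
        · exact h4
    obtain ⟨ψ, -, hψ⟩ := exists_psi h2 (⊥ : AddSubgroup F) (by
      intro h
      have : (1 : F) ∈ (⊥ : AddSubgroup F) := by rw [h]; trivial
      exact one_ne_zero (AddSubgroup.mem_bot.1 this))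
    have h3 := pair_le hB h2 hψ (RW hB X w u) (RW hB X w u) (by
      rintro x ⟨⟨hwx, d, hd⟩, -⟩ y ⟨⟨hwy, e, he⟩, -⟩
      have h4 := X.mul_mem he hd
      rw [E_mul hB hwy hwx] at h4
      have h5 := hc0 _ _ (by rw [map_add, hwy, hwx, add_zero]) h4
      rw [hc0 x d hwx hd, hc0 y e hwy he, zero_add, zero_add] at h5
      rw [h5, map_zero])
    rw [hV] at h3
    have h4 : Nat.card F ^ m * Nat.card F ^ m < Nat.card (RW hB X w u) * Nat.card (RW hB X w u) :=
      Nat.mul_lt_mul'' hR1 hR1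
    rw [← pow_add, ← two_mul] at h4
    omega
  · push Not at hu
    obtain ⟨a, rfl⟩ := hu
    have h3 := E_add_v hB (map_zero (B w)) a c
    rw [zero_add, h2, zero_mul, add_zero] at h3
    rw [h3] at hx h1
    rcases no_tv w c hx with h4 | h4
    · exact hw h4
    · rw [h4] at h1
      exact h1 (E_one hB w)

end Main

end Cfsg.Agent.H333.IF
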